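import Cfsg.Agent.H175.OT.P
import Cfsg.Agent.H179.OT.F4

/-!
# S2539, part 5: the facts `SD` for the roots of `F₄` and `G₂` (helper175)
-/

set_option autoImplicit false

namespace Cfsg.Agent.H175.OT

open Cfsg Cfsg.Lie Cfsg.Lie.ChevalleyDatum
open Cfsg.Agent.ChevalleyStructure Cfsg.Agent.ChevalleyStructure.RootVec Cfsg.Agent.ChevalleyStructure.RootVecTab
open Cfsg.Agent.H412.OT (pr)
open Cfsg.Agent.H179.OT

namespace SDF4

def anyLT (f : ℕ → Bool) : ℕ → Bool
  | 0 => false
  | n + 1 => bif f n then true else anyLT f n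

theorem anyLT_iff (f : ℕ → Bool) (n : ℕ) : anyLT f n = true ↔ ∃ i < n, f i = true := by
  induction n with
  | zero => simp [anyLT]
  | succ n ih =>
    rw [anyLT]
    cases h : f n
    · rw [cond_false, ih]
      constructor
      · rintro ⟨i, hi, h1⟩
        exact ⟨i, by omega, h1⟩
      · rintro ⟨i, hi, h1⟩
        refine ⟨i, ?_, h1⟩
        by_contra h2
        have h3 : i = n := by omega
        rw [h3, h] at h1
        exact Bool.false_ne_true h1
    · rw [cond_true]
      exact ⟨fun _ => ⟨n, by omega, h⟩, fun _ => rfl⟩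

/-- separation -/
def chkSep : Bool :=
  allLT (fun s => allLT (fun r => bif Nat.beq r s then true else bif Nat.beq (Nat.add r s) 47 then true else
    anyLT (fun g => bif Nat.beq (F4.t g s) 4 then !(Nat.beq (F4.t g r) 4) else false) 48) 48) 48

theorem chkSep_true : chkSep = true := by decide +kernel

/-- an odd pairing -/
def chkOdd : Bool := allLT (fun s => anyLT (fun a => Nat.beq (Nat.mod (F4.t s a) 2) 1) 48) 48

theorem chkOdd_true : chkOdd = true := by decide +kernel

/-- bounds -/
def chkBd : Bool := allLT (fun s => allLT (fun a => bif Nat.ble 1 (F4.t s a) then Nat.ble (F4.t s a) 7 else false) 48) 48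

theorem chkBd_true : chkBd = true := by decide +kernel

theorem neg_F4 : ∀ r < 48, chevF4.neg r + r = 47 := by decide +kernel

end SDF4

theorem sd_F4 {s : ℕ} (hs : s < chevF4.nroots) : SD chevF4 s := by
  have hs' : s < 48 := hs
  refine ⟨hs, ?_, ?_, ?_⟩
  · have h := SDF4.chkOdd_true
    rw [SDF4.chkOdd, allLT_iff] at h
    obtain ⟨a, ha, h1⟩ := (SDF4.anyLT_iff _ _).1 (h s hs')
    have h2 := Nat.eq_of_beq_eq_true h1
    refine ⟨a, ha, ?_⟩
    rw [F4.pr_eq_t hs' ha, Int.odd_iff]
    change F4.t s a % 2 = 1 at h2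
    omega
  · intro r hr h0
    have hr' : r < 48 := hr
    have h := SDF4.chkSep_true
    rw [SDF4.chkSep, allLT_iff] at h
    have h1 := h s hs'
    rw [allLT_iff] at h1
    have h2 := h1 r hr'
    cases e : Nat.beq r s
    · rw [e, cond_false] at h2
      cases e1 : Nat.beq (Nat.add r s) 47
      · rw [e1, cond_false, SDF4.anyLT_iff] at h2
        obtain ⟨g, hg, h3⟩ := h2
        exfalso
        cases e2 : Nat.beq (F4.t g s) 4
        · rw [e2, cond_false] at h3
          exact Bool.false_ne_true h3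
        · rw [e2, cond_true] at h3
          have h4 := Nat.eq_of_beq_eq_true e2
          have h5 := h0 g hg (by rw [F4.pr_eq_t hg hs', h4]; norm_num)
          rw [F4.pr_eq_t hg hr'] at h5
          have h6 : F4.t g r = 4 := by omega
          rw [h6] at h3
          exact absurd h3 (by decide)
      · right
        have h3 : r + s = 47 := Nat.eq_of_beq_eq_true e1
        have h4 := SDF4.neg_F4 s hs'
        omega
    · exact Or.inl (Nat.eq_of_beq_eq_true e)
  · intro r hr g hg
    have h := SDF4.chkBd_true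
    rw [SDF4.chkBd, allLT_iff] at h
    have h1 := h r hr
    rw [allLT_iff] at h1
    have h2 := h1 g hg
    rw [F4.pr_eq_t hr hg, abs_le]
    cases e : Nat.ble 1 (F4.t r g)
    · rw [e, cond_false] at h2
      exact absurd h2 Bool.false_ne_true
    · rw [e, cond_true] at h2
      have h3 := Nat.le_of_ble_eq_true e
      have h4 := Nat.le_of_ble_eq_true h2
      omega

theorem sd_G2 {s : ℕ} (hs : s < chevG2.nroots) : SD chevG2 s := by
  refine ⟨hs, ?_, ?_, ?_⟩
  · have h : ∀ s < chevG2.nroots, ∃ a < chevG2.nroots, pr chevG2 s a % 2 = 1 := by decide +kernel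
    obtain ⟨a, ha, h1⟩ := h s hs
    exact ⟨a, ha, Int.odd_iff.2 h1⟩
  · have h : ∀ s < chevG2.nroots, ∀ r < chevG2.nroots, (∀ g < chevG2.nroots, pr chevG2 g s = 0 → pr chevG2 g r = 0) →
        r = s ∨ r = chevG2.neg s := by decide +kernel
    exact h s hs
  · have h : ∀ r < chevG2.nroots, ∀ g < chevG2.nroots, -3 ≤ pr chevG2 r g ∧ pr chevG2 r g ≤ 3 := by decide +kernel
    intro r hr g hg
    exact abs_le.2 (h r hr g hg)

end Cfsg.Agent.H175.OT
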