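import Cfsg.Agent.H194.OT.RankOne
import Cfsg.Agent.H175.OT.Mat2

/-!
# S2539, part 5: groups of rank one, abstract form (helper175)

`φ : SL₂(K) → G`.  `ActM φ x P` : `x` acts on `φ(SL₂(K))` as the conjugation by the matrix `P`.

* `p1` : `h = φ(A) t`, `h ^ (q - 1)` centralises `φ(SL₂)`: a conjugate of `h` lies in `T`, or `h ^ 2` centralises;
* `p2` : `x` not centralising, `x ^ 2` centralising: a conjugate of `x` acts by an antidiagonal matrix.
-/

set_option autoImplicit false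

namespace Cfsg.Agent.H175.OT

open Matrix
open Cfsg.Agent.ChevalleyStructure.SL2Hom (up lo)
open Cfsg.Agent.H194.OT

universe u

variable {K : Type u} [Field K] {G : Type*} [Group G]

local notation "M2" => Matrix (Fin 2) (Fin 2)
local notation "SL2" => Matrix.SpecialLinearGroup (Fin 2)

/-- `x` acts on `φ(SL₂(K))` as the conjugation by `P` -/
def ActM (φ : SL2 K →* G) (x : G) (P : M2 K) : Prop :=
  P.det ≠ 0 ∧ ∀ A B : SL2 K, (B : M2 K) * P = P * (A : M2 K) → x * φ A * x⁻¹ = φ B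

/-- conjugates of elements of `SL₂` -/
theorem exists_cj {P : M2 K} (hP : P.det ≠ 0) (A : SL2 K) : ∃ B : SL2 K, (B : M2 K) * P = P * (A : M2 K) := by
  have h1 : P⁻¹ * P = 1 := Matrix.nonsing_inv_mul P (isUnit_iff_ne_zero.2 hP)
  refine ⟨⟨P * (A : M2 K) * P⁻¹, ?_⟩, ?_⟩
  · rw [Matrix.det_mul, Matrix.det_mul, Matrix.SpecialLinearGroup.det_coe, mul_one, ← Matrix.det_mul,
      Matrix.mul_nonsing_inv P (isUnit_iff_ne_zero.2 hP), Matrix.det_one]
  · change P * (A : M2 K) * P⁻¹ * P = _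
    rw [mul_assoc, h1, mul_one]

theorem right_cancel {P X Y : M2 K} (hP : P.det ≠ 0) (h : X * P = Y * P) : X = Y := by
  have h1 : P * P⁻¹ = 1 := Matrix.mul_nonsing_inv P (isUnit_iff_ne_zero.2 hP)
  have h2 := congrArg (· * P⁻¹) h
  simpa only [mul_assoc, h1, mul_one] using h2

variable {φ : SL2 K →* G}

theorem ActM.mul {x y : G} {P Q : M2 K} (hx : ActM φ x P) (hy : ActM φ y Q) : ActM φ (x * y) (P * Q) := by
  refine ⟨by rw [Matrix.det_mul]; exact mul_ne_zero hx.1 hy.1, fun A B h => ?_⟩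
  obtain ⟨C, hC⟩ := exists_cj hy.1 A
  have h1 : (B : M2 K) * P = P * (C : M2 K) := by
    refine right_cancel hy.1 ?_
    rw [mul_assoc, h, mul_assoc, mul_assoc, hC]
  have e : x * y * φ A * (x * y)⁻¹ = x * (y * φ A * y⁻¹) * x⁻¹ := by group
  rw [e, hy.2 A C hC, hx.2 C B h1]

theorem actM_one : ActM φ 1 (1 : M2 K) :=
  ⟨by rw [Matrix.det_one]; exact one_ne_zero, fun A B h => by
    rw [mul_one, one_mul] at h
    rw [Subtype.ext h, one_mul, inv_one, mul_one]⟩

theorem ActM.pow {x : G} {P : M2 K} (hx : ActM φ x P) (n : ℕ) : ActM φ (x ^ n) (P ^ n) := by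
  induction n with
  | zero => rw [pow_zero, pow_zero]; exact actM_one
  | succ n ih => rw [pow_succ, pow_succ]; exact ih.mul hx

theorem actM_phi (C : SL2 K) : ActM φ (φ C) (C : M2 K) :=
  ⟨by rw [Matrix.SpecialLinearGroup.det_coe]; exact one_ne_zero, fun A B h => by
    have h1 : B * C = C * A := Subtype.ext h
    rw [← map_mul, ← h1, ← map_inv, ← map_mul, mul_inv_cancel_right]⟩

theorem ActM.smul {x : G} {P : M2 K} (hx : ActM φ x P) {k : K} (hk : k ≠ 0) : ActM φ x (k • P) := by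
  refine ⟨?_, fun A B h => hx.2 A B ?_⟩
  · rw [Matrix.det_smul]
    exact mul_ne_zero (pow_ne_zero _ hk) hx.1
  · rw [mul_smul_comm, smul_mul_assoc] at h
    have h1 := congrArg (k⁻¹ • ·) h
    simpa only [smul_smul, inv_mul_cancel₀ hk, one_smul] using h1

theorem ActM.comm {x : G} {k : K} (hx : ActM φ x (k • (1 : M2 K))) (A : SL2 K) : x * φ A = φ A * x := by
  have h := hx.2 A A (by rw [mul_smul_comm, smul_mul_assoc, mul_one, one_mul])
  rwa [mul_inv_eq_iff_eq_mul] at h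

theorem scalar_of_comm {P : M2 K} (h1 : (up 1 : SL2 K).1 * P = P * (up 1 : SL2 K).1)
    (h2 : (lo 1 : SL2 K).1 * P = P * (lo 1 : SL2 K).1) : ∃ k : K, P = k • (1 : M2 K) := by
  refine ⟨P 0 0, ?_⟩
  have a1 := congrFun (congrFun h1 0) 0
  have a2 := congrFun (congrFun h1 0) 1
  have a3 := congrFun (congrFun h2 0) 0
  simp [up, lo, Matrix.mul_apply, Fin.sum_univ_two] at a1 a2 a3
  ext i j
  fin_cases i <;> fin_cases j <;> simp
  · exact a3
  · exact a1
  · linear_combination a2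

theorem ActM.scalar (hφ : Function.Injective φ) {x : G} {P : M2 K} (hx : ActM φ x P)
    (hc : ∀ A : SL2 K, x * φ A = φ A * x) : ∃ k : K, P = k • (1 : M2 K) := by
  have key : ∀ A : SL2 K, (A : M2 K) * P = P * (A : M2 K) := by
    intro A
    obtain ⟨B, hB⟩ := exists_cj hx.1 A
    have h1 := hx.2 A B hB
    rw [hc A, mul_inv_cancel_right] at h1
    have h2 := hφ h1
    subst h2
    exact hB
  exact scalar_of_comm (key _) (key _)

/-- the matrix of a torus element -/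
theorem actM_act {t : G} {c : Kˣ} (h : Act φ t c) : ActM φ t !![(c : K), 0; 0, 1] := by
  refine ⟨by rw [Matrix.det_fin_two_of]; simp, fun A B hB => ?_⟩
  rw [h.conj]
  congr 1
  have hc := c.ne_zero
  have e00 := congrFun (congrFun hB 0) 0
  have e01 := congrFun (congrFun hB 0) 1
  have e10 := congrFun (congrFun hB 1) 0
  have e11 := congrFun (congrFun hB 1) 1
  simp only [Matrix.mul_apply, Fin.sum_univ_two, Matrix.of_apply, Matrix.cons_val', Matrix.cons_val_zero,
    Matrix.cons_val_one, Matrix.cons_val_fin_one, mul_zero, zero_mul, add_zero, zero_add, mul_one, one_mul] at e00 e01 e10 e11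
  apply ext2
  · show A.1 0 0 = B.1 0 0
    exact mul_left_cancel₀ hc (by rw [mul_comm (c : K) (B.1 0 0), e00])
  · show (c : K) * A.1 0 1 = B.1 0 1
    exact e01.symm
  · show ((c⁻¹ : Kˣ) : K) * A.1 1 0 = B.1 1 0
    rw [← e10, mul_comm, mul_assoc, Units.mul_inv, mul_one]
  · show A.1 1 1 = B.1 1 1
    exact e11.symm

theorem ActM.congr {x : G} {P Q : M2 K} (hx : ActM φ x P) (h : P = Q) : ActM φ x Q := h ▸ hx

/-- **(P1), abstract form.** -/
theorem p1 [Fintype K] (h2 : (2 : K) ≠ 0) (hφ : Function.Injective φ) {T : Subgroup G}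
    (hdm : ∀ c : Kˣ, φ (hd c) ∈ T) {A : SL2 K} {t : G} (ht : t ∈ T) {c : Kˣ} (hc : Act φ t c)
    (hq : ∀ B, (φ A * t) ^ (Fintype.card K - 1) * φ B = φ B * (φ A * t) ^ (Fintype.card K - 1)) :
    (∃ B, φ B * (φ A * t) * (φ B)⁻¹ ∈ T) ∨ ∀ B, (φ A * t) ^ 2 * φ B = φ B * (φ A * t) ^ 2 := by
  have hP := (actM_phi (φ := φ) A).mul (actM_act hc)
  set P : M2 K := (A : M2 K) * !![(c : K), 0; 0, 1] with hPd
  obtain ⟨l, hl⟩ := (hP.pow (Fintype.card K - 1)).scalar hφ hq
  have hl' : P ^ Fintype.card K = l • P := by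
    obtain ⟨m, hm⟩ : ∃ m, Fintype.card K = m + 1 := Nat.exists_eq_succ_of_ne_zero Fintype.card_ne_zero
    rw [hm, Nat.add_sub_cancel] at hl
    rw [hm, pow_succ, hl, smul_mul_assoc, one_mul]
  rcases Mat2.exists_root_or h2 hl' hP.1 with hr | ⟨k, hk⟩
  · left
    obtain ⟨B, a, d, hB⟩ := Mat2.exists_conj_diag hl' hP.1 hr
    refine ⟨B⁻¹, ?_⟩
    have hc0 := c.ne_zero
    -- `B⁻¹ A (c B c⁻¹) = diag`
    have h3 : ((B⁻¹ * A * cj c B : SL2 K) : M2 K) * !![(c : K), 0; 0, 1] = !![a, 0; 0, d] := by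
      rw [← hB, hPd]
      change ((B⁻¹ : SL2 K) : M2 K) * (A : M2 K) * (cj c B : M2 K) * !![(c : K), 0; 0, 1] = _
      have h4 : (cj c B : M2 K) * !![(c : K), 0; 0, 1] = !![(c : K), 0; 0, 1] * (B : M2 K) := by
        rw [Matrix.eta_fin_two (B : M2 K)]
        change !![B.1 0 0, (c : K) * B.1 0 1; ((c⁻¹ : Kˣ) : K) * B.1 1 0, B.1 1 1] * !![(c : K), 0; 0, 1] = _
        rw [Matrix.mul_fin_two, Matrix.mul_fin_two]
        have e1 : ((c⁻¹ : Kˣ) : K) * B.1 1 0 * (c : K) = B.1 1 0 := by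
          rw [mul_comm, ← mul_assoc, Units.mul_inv, one_mul]
        simp only [mul_zero, add_zero, mul_one, zero_mul, zero_add, one_mul, e1]
        rw [mul_comm (c : K) (B.1 0 0)]
      rw [mul_assoc, h4]
      simp only [mul_assoc]
    set C : SL2 K := B⁻¹ * A * cj c B with hCd
    rw [Matrix.eta_fin_two (C : M2 K), Matrix.mul_fin_two] at h3
    have e01 := congrFun (congrFun h3 0) 1
    have e10 := congrFun (congrFun h3 1) 0
    simp at e01 e10
    have hdet := det2 C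
    change C.1 0 1 = 0 at e01
    have e10' : C.1 1 0 = 0 := e10
    rw [e01, zero_mul, sub_zero] at hdet
    have hα : C.1 0 0 ≠ 0 := left_ne_zero_of_mul_eq_one hdet
    have hC : C = hd (Units.mk0 _ hα) := by
      apply ext2
      · rfl
      · exact e01
      · exact e10'
      · show C.1 1 1 = (((Units.mk0 _ hα)⁻¹ : Kˣ) : K)
        rw [Units.val_inv_eq_inv_val]
        exact eq_inv_of_mul_eq_one_right hdet
    have e : φ B⁻¹ * (φ A * t) * (φ B⁻¹)⁻¹ = φ C * t := by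
      rw [hCd, map_mul, map_mul, ← hc.conj, map_inv]
      group
    rw [e, hC]
    exact mul_mem (hdm _) ht
  · right
    have h3 : ActM φ ((φ A * t) ^ 2) (k • (1 : M2 K)) := (hP.pow 2).congr (by rw [pow_two, hk])
    exact fun B => h3.comm B

/-- **(P2), abstract form.** -/
theorem p2 (hφ : Function.Injective φ) {x : G} {P : M2 K} (hP : ActM φ x P)
    (hx : ¬ ∀ A : SL2 K, x * φ A = φ A * x) (hx2 : ∀ A : SL2 K, x ^ 2 * φ A = φ A * x ^ 2) :
    ∃ (B : SL2 K) (a d : K), ActM φ (φ B * x * (φ B)⁻¹) !![0, a; d, 0] := by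
  have hs : ∀ c : K, P ≠ c • (1 : M2 K) := by
    rintro c rfl
    exact hx fun A => hP.comm A
  obtain ⟨l, hl⟩ := (hP.pow 2).scalar hφ hx2
  rw [pow_two] at hl
  obtain ⟨B, a, d, hB⟩ := Mat2.exists_conj_anti hs hl
  refine ⟨B⁻¹, a, d, ?_⟩
  have h1 := ((actM_phi (φ := φ) B⁻¹).mul hP).mul (actM_phi (φ := φ) B)
  have h2 := h1.congr hB
  rw [map_inv, inv_inv]
  rwa [map_inv] at h2

end Cfsg.Agent.H175.OT
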